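import Cfsg.Agent.Lib.NormalPComplement.GlaubermanThompson
import Cfsg.Agent.Lib.FusionBasics.LocalNilpotent

/-!
An axiomatic form of the Glauberman–Thompson normal `p`-complement theorem for groups of
characteristic `p`, `p` odd: the intersection of a family of abelian subgroups of a Sylow subgroup
with an invariance and a replacement property.
-/

set_option autoImplicit false
set_option linter.style.haveILetI false
set_option linter.unusedSectionVars false

open scoped Pointwise commutatorElement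

universe u

namespace CfsgLib.FusionBasics.AxiomaticGT

open Cfsg CfsgLib.NormalPComplement

variable {G : Type u} [Group G] [Finite G] {p : ℕ} [Fact p.Prime]

/-- The critical case. -/
theorem centralize_of_axiomatic {S : Sylow p G} (h : IsCritical S) (hp : p ≠ 2) {Z : Subgroup G}
    (hSZ : (S : Subgroup G) ≤ Subgroup.normalizer (Z : Set G)) (F : Subgroup G → Prop)
    (hab : ∀ A, F A → IsMulCommutative A) (hle : ∀ A, F A → A ≤ (S : Subgroup G))
    (hZA : ∀ A, F A → Z ≤ A) (hout : ∃ A, F A ∧ ¬ A ≤ pCore p G)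
    (hin : ∀ A, F A → A ≤ pCore p G → ∀ z ∈ Z, ∀ g : G, g * z * g⁻¹ ∈ A)
    (hrep : ∀ B : Subgroup G, B ≤ (S : Subgroup G) → ⁅⁅B, B⁆, B⁆ = ⊥ →
      (∃ A, F A ∧ ⁅B, B⁆ ≤ A ∧ ¬ B ≤ A) →
      ∃ A, F A ∧ ⁅B, B⁆ ≤ A ∧ ¬ B ≤ A ∧ B ≤ Subgroup.normalizer (A : Set G))
    {k : G} (hk : (orderOf k).Coprime p) : k ∈ Subgroup.centralizer (Z : Set G) := by
  have hQS : pCore p G ≤ (S : Subgroup G) := Cores.pCore_le_sylow S
  obtain ⟨A₀, hA₀, hA₀Q⟩ := hout
  have hZQ : Z ≤ pCore p G := by
    intro z hz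
    by_contra hzQ
    refine h.not_centralize_pCore fun l hl => h.centralize_of_quadratic hp
      (hle _ hA₀ (hZA _ hA₀ hz)) hzQ le_rfl (fun v hv => ?_) hl
    refine commutatorElement_eq_one_iff_mul_comm.2 ?_
    have h1 : ⁅v, z⁆ ∈ Z := by
      rw [commutatorElement_def]
      exact Z.mul_mem ((Subgroup.mem_normalizer_iff.1 (hSZ (hQS hv)) z).1 hz) (Z.inv_mem hz)
    exact isMulCommutative_iff_le_centralizer.1 (hab _ hA₀) (hZA _ hA₀ hz) _ (hZA _ hA₀ h1)
  revert k
  by_contra hne
  obtain ⟨B, hB⟩ : ∃ B, Minimal (fun B : Subgroup G => B.Normal ∧ B ≤ pCore p G ∧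
      ¬ ∀ k : G, (orderOf k).Coprime p → k ∈ Subgroup.centralizer ((B ⊓ Z : Subgroup G) : Set G)) B := by
    refine Set.Finite.exists_minimal (Set.toFinite _) ⟨pCore p G, inferInstance, le_rfl, ?_⟩
    rw [inf_eq_right.2 hZQ]
    exact fun hall => hne fun {k} hk => hall k hk
  obtain ⟨hBn, hBQ, hBbad⟩ := hB.prop
  haveI := hBn
  have hB1 : B ≤ Subgroup.normalClosure ((B ⊓ Z : Subgroup G) : Set G) := by
    have hle1 : Subgroup.normalClosure ((B ⊓ Z : Subgroup G) : Set G) ≤ B :=
      Subgroup.normalClosure_le_normal inf_le_left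
    refine hB.2 ⟨inferInstance, hle1.trans hBQ, fun hall => hBbad fun k hk => ?_⟩ hle1
    exact Subgroup.centralizer_le (le_inf Subgroup.subset_normalClosure inf_le_right :
      B ⊓ Z ≤ Subgroup.normalClosure ((B ⊓ Z : Subgroup G) : Set G) ⊓ Z) (hall k hk)
  have hBne : B ≠ ⊥ := by
    intro e
    refine hBbad fun k _ => Subgroup.mem_centralizer_iff.2 fun x hx => ?_
    rw [Subgroup.mem_bot.1 (e.le hx.1)]; simp
  haveI := (Cores.isPGroup_pCore p G).isNilpotent
  have hlt : ⁅B, B⁆ < B := lt_of_le_of_ne (Subgroup.commutator_le_self B) fun e =>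
    hBne (eq_bot_of_le_commutator hBQ hBQ e.ge)
  have hD : ∀ k : G, (orderOf k).Coprime p →
      k ∈ Subgroup.centralizer ((⁅B, B⁆ ⊓ Z : Subgroup G) : Set G) := by
    by_contra hbad
    exact hlt.not_ge (hB.2 ⟨inferInstance, hlt.le.trans hBQ, hbad⟩ hlt.le)
  haveI hDn : (⁅B, B⁆ ⊓ Z : Subgroup G).Normal := by
    refine h.normal_of_centralized (fun s hs => CoprimeAction.mem_normalizer_of_conj_mem
      fun x hx => ⟨Subgroup.Normal.conj_mem inferInstance x hx.1 s,
        (Subgroup.mem_normalizer_iff.1 (hSZ hs) x).1 hx.2⟩) hD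
  have hBBZ : ⁅B, B⁆ ≤ Z := by
    let π := QuotientGroup.mk' (⁅B, B⁆ ⊓ Z)
    have hcent : B ≤ (Subgroup.centralizer (π '' (B : Set G))).comap π := by
      haveI : ((Subgroup.centralizer (π '' (B : Set G))).comap π).Normal := by
        haveI : (B.map π).Normal := Subgroup.Normal.map hBn π (QuotientGroup.mk'_surjective _)
        have e : π '' (B : Set G) = ((B.map π : Subgroup _) : Set (G ⧸ (⁅B, B⁆ ⊓ Z))) := rfl
        rw [e]
        infer_instance
      refine hB1.trans (Subgroup.normalClosure_le_normal fun x hx => ?_)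
      rw [SetLike.mem_coe, Subgroup.mem_comap, Subgroup.mem_centralizer_iff]
      rintro _ ⟨b, hb, rfl⟩
      rw [← commutatorElement_eq_one_iff_mul_comm, ← map_commutatorElement]
      refine (QuotientGroup.eq_one_iff _).2 ⟨Subgroup.commutator_mem_commutator hb hx.1, ?_⟩
      rw [commutatorElement_def]
      exact Z.mul_mem ((Subgroup.mem_normalizer_iff.1 (hSZ (hQS (hBQ hb))) x).1 hx.2) (Z.inv_mem hx.2)
    rw [Subgroup.commutator_le]
    intro x hx y hy
    have : π ⁅x, y⁆ = 1 := by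
      rw [map_commutatorElement, commutatorElement_eq_one_iff_mul_comm]
      exact (Subgroup.mem_centralizer_iff.1 (hcent hx) _ ⟨y, hy, rfl⟩).symm
    exact ((QuotientGroup.eq_one_iff _).1 this).2
  have hclass : ⁅⁅B, B⁆, B⁆ = ⊥ := by
    rw [Subgroup.commutator_eq_bot_iff_le_centralizer, Subgroup.le_centralizer_iff]
    refine hB1.trans (Subgroup.normalClosure_le_normal fun x hx => ?_)
    refine Subgroup.mem_centralizer_iff.2 fun y hy => ?_
    exact Subgroup.mem_centralizer_iff.1 (isMulCommutative_iff_le_centralizer.1 (hab A₀ hA₀)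
      (hZA A₀ hA₀ hx.2)) y (hZA A₀ hA₀ (hBBZ hy))
  by_cases hex : ∃ A, F A ∧ ¬ B ≤ A
  · obtain ⟨A₁, hA₁, hBA₁⟩ := hex
    obtain ⟨A, hA, -, hBA, hn⟩ := hrep B (hBQ.trans hQS) hclass
      ⟨A₁, hA₁, hBBZ.trans (hZA A₁ hA₁), hBA₁⟩
    by_cases hAQ : A ≤ pCore p G
    · refine hBA (hB1.trans ((Subgroup.closure_le _).2 fun x hx => ?_))
      obtain ⟨y, hy, hyx⟩ := Group.mem_conjugatesOfSet_iff.1 hx
      obtain ⟨g, rfl⟩ := isConj_iff.1 hyx
      exact hin A hA hAQ y hy.2 g
    · obtain ⟨a, ha, haQ⟩ := SetLike.not_le_iff_exists.1 hAQ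
      exact hBbad fun k hk => Subgroup.centralizer_le (inf_le_left : B ⊓ Z ≤ B)
        (h.centralize_of_quadratic hp (hle A hA ha) haQ hBQ
          (fun v hv => quadratic_of_mem_normalizer (hab A hA) (hn hv) ha) hk)
  · push Not at hex
    obtain ⟨a, ha, haQ⟩ := SetLike.not_le_iff_exists.1 hA₀Q
    exact hBbad fun k hk => Subgroup.centralizer_le (inf_le_left : B ⊓ Z ≤ B)
      (h.centralize_of_quadratic hp (hle A₀ hA₀ ha) haQ hBQ
        (fun v hv => quadratic_of_mem_normalizer (hab A₀ hA₀)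
          (Subgroup.le_normalizer (hex A₀ hA₀ hv)) ha) hk)

/-- **The axiomatic Glauberman–Thompson theorem** for groups of characteristic `p`. -/
theorem hasNormalPComplement_of_axiomatic (hp : p ≠ 2) (P : Sylow p G)
    (hC : Subgroup.centralizer ((pCore p G : Subgroup G) : Set G) ≤ pCore p G)
    (F : Subgroup G → Prop) (hab : ∀ A, F A → IsMulCommutative A)
    (hle : ∀ A, F A → A ≤ (P : Subgroup G)) (hne : ∃ A, F A) (W : Subgroup G)
    (hW : ∀ x, x ∈ W ↔ ∀ A, F A → x ∈ A)
    (hinv : ∀ Q : Subgroup G, Q ≤ (P : Subgroup G) → (∃ A, F A ∧ A ≤ Q) →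
      ∀ g ∈ Subgroup.normalizer (Q : Set G), ∀ x : G, (∀ A, F A → A ≤ Q → x ∈ A) →
        ∀ A, F A → A ≤ Q → g * x * g⁻¹ ∈ A)
    (hrep : ∀ B : Subgroup G, B ≤ (P : Subgroup G) → ⁅⁅B, B⁆, B⁆ = ⊥ →
      (∃ A, F A ∧ ⁅B, B⁆ ≤ A ∧ ¬ B ≤ A) →
      ∃ A, F A ∧ ⁅B, B⁆ ≤ A ∧ ¬ B ≤ A ∧ B ≤ Subgroup.normalizer (A : Set G))
    (hN : HasNormalPComplement p ↥(Subgroup.normalizer (W : Set G))) :
    HasNormalPComplement p G := by
  obtain ⟨n, hn⟩ : ∃ n, Nat.card G = n := ⟨_, rfl⟩
  revert G
  induction n using Nat.strong_induction_on with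
  | _ n ih =>
  intro G _ _ P hC F hab hle hne W hW hinv hrep hN hn
  by_contra hnot
  have hQp := Cores.isPGroup_pCore p G
  obtain ⟨A₀, hA₀⟩ := hne
  have hWP : W ≤ (P : Subgroup G) := fun x hx => hle A₀ hA₀ ((hW x).1 hx A₀ hA₀)
  have hmax : ∀ M : Subgroup G, (P : Subgroup G) ≤ M → M = (P : Subgroup G) ∨ M = ⊤ := by
    intro M hPM
    refine (em (M = ⊤)).symm.imp_left fun hMtop => ?_
    have hlt : Nat.card M < n := hn ▸ lt_of_le_of_ne (Subgroup.card_le_card_group M)
      fun e => hMtop (Subgroup.eq_top_of_card_eq M e)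
    have hQM : pCore p G ≤ M := (Cores.pCore_le_sylow P).trans hPM
    haveI : ((pCore p G).subgroupOf M).Normal := ⟨fun x hx g =>
      (Subgroup.Normal.conj_mem inferInstance (x : G) hx (g : G) :
        (g : G) * x * (g : G)⁻¹ ∈ pCore p G)⟩
    have hQM' : (pCore p G).subgroupOf M ≤ pCore p M := Cores.le_pCore hQp.comap_subtype
    have hCM : Subgroup.centralizer ((pCore p M : Subgroup M) : Set M) ≤ pCore p M := by
      intro x hx
      refine hQM' (hC (Subgroup.mem_centralizer_iff.2 fun y hy => ?_))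
      exact congrArg Subtype.val (Subgroup.mem_centralizer_iff.1 hx ⟨y, hQM hy⟩ (hQM' hy))
    have hnc : HasNormalPComplement p M := by
      refine ih _ hlt (P.subtype hPM) hCM (fun A => F (A.map M.subtype))
        (fun A hA => (isMulCommutative_map_iff M.subtype_injective).1 (hab _ hA))
        (fun A hA => ?_) ⟨A₀.subgroupOf M, ?_⟩ (W.subgroupOf M) (fun x => ?_) ?_ ?_ ?_ rfl
      · rw [Sylow.coe_subtype]
        exact fun a ha => hle _ hA ⟨a, ha, rfl⟩
      · show F ((A₀.subgroupOf M).map M.subtype)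
        rw [Subgroup.map_subgroupOf_eq_of_le ((hle A₀ hA₀).trans hPM)]
        exact hA₀
      · rw [Subgroup.mem_subgroupOf, hW]
        refine ⟨fun h A hA => (Subgroup.mem_map_iff_mem M.subtype_injective).1 (h _ hA),
          fun h A hA => ?_⟩
        have := h (A.subgroupOf M)
          (by show F _; rw [Subgroup.map_subgroupOf_eq_of_le ((hle A hA).trans hPM)]; exact hA)
        exact this
      · intro Q hQ hex g hg x hx A hA hAQ
        obtain ⟨A₁, hA₁, hA₁Q⟩ := hex
        have h := hinv (Q.map M.subtype) ?_ ⟨_, hA₁, Subgroup.map_mono hA₁Q⟩ g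
          (Subgroup.le_normalizer_map M.subtype ⟨g, hg, rfl⟩) x (fun A' hA' hA'Q => ?_) _ hA
          (Subgroup.map_mono hAQ)
        · exact (Subgroup.mem_map_iff_mem M.subtype_injective).1 h
        · rw [Sylow.coe_subtype] at hQ
          rintro _ ⟨a, ha, rfl⟩
          exact hQ ha
        · have hA'M : A' ≤ M := (hle A' hA').trans hPM
          exact hx (A'.subgroupOf M)
            (by show F _; rw [Subgroup.map_subgroupOf_eq_of_le hA'M]; exact hA')
            fun a ha => (Subgroup.mem_map_iff_mem M.subtype_injective).1 (hA'Q ha)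
      · intro B hB hcl hex
        obtain ⟨A₁, hA₁, h1, h2⟩ := hex
        have e : ⁅B.map M.subtype, B.map M.subtype⁆ = ⁅B, B⁆.map M.subtype :=
          (Subgroup.map_commutator B B _).symm
        have hB' : B.map M.subtype ≤ (P : Subgroup G) := by
          rw [Sylow.coe_subtype] at hB
          rintro _ ⟨a, ha, rfl⟩
          exact hB ha
        have hcl' : ⁅⁅B.map M.subtype, B.map M.subtype⁆, B.map M.subtype⁆ = ⊥ := by
          rw [e, ← Subgroup.map_commutator, hcl, Subgroup.map_bot]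
        obtain ⟨A, hA, h3, h4, h5⟩ := hrep (B.map M.subtype) hB' hcl'
          ⟨_, hA₁, e ▸ Subgroup.map_mono h1,
            fun h => h2 ((Subgroup.map_le_map_iff_of_injective M.subtype_injective).1 h)⟩
        have hAM : A ≤ M := (hle A hA).trans hPM
        refine ⟨A.subgroupOf M,
          by show F _; rw [Subgroup.map_subgroupOf_eq_of_le hAM]; exact hA,
          fun b hb => h3 (e ▸ ⟨b, hb, rfl⟩), fun h => h4 fun _ ⟨b, hb, e'⟩ => e' ▸ h hb,
          fun b hb => Subgroup.mem_normalizer_iff.2 fun a => ?_⟩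
        exact Subgroup.mem_normalizer_iff.1 (h5 ⟨b, hb, rfl⟩) (a : G)
      · refine hasNormalPComplement_normalizer_of_injective M.subtype M.subtype_injective _ ?_
        rwa [Subgroup.map_subgroupOf_eq_of_le (hWP.trans hPM)]
    exact P.3 ((LocalNilpotent.isPGroup_of_hasNormalPComplement hnc hCM)) hPM
  have hK : pPrimeCore p G = ⊥ := by
    refine eq_bot_iff.2 fun y hy => Subgroup.mem_bot.2 ?_
    have hyQ : y ∈ pCore p G := hC (Subgroup.mem_centralizer_iff.2 fun x hx =>
      Cores.commute_pCore_pPrimeCore hx hy)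
    obtain ⟨k, hk⟩ := IsPGroup.iff_card.1 hQp
    exact orderOf_eq_one_iff.1 (Nat.eq_one_of_dvd_coprimes
      ((Cores.card_pPrimeCore_coprime p).pow_right k) (Subgroup.orderOf_dvd_natCard _ hy)
      (hk ▸ Subgroup.orderOf_dvd_natCard _ hyQ))
  have hq : HasNormalPComplement p (G ⧸ pCore p G) := by
    let π := QuotientGroup.mk' (pCore p G)
    let T : Sylow p (G ⧸ pCore p G) := P.mapSurjective (QuotientGroup.mk'_surjective (pCore p G))
    by_cases hT : (T : Subgroup (G ⧸ pCore p G)) = ⊥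
    · exact hasNormalPComplement_of_coprime
        ((Nat.Prime.coprime_iff_not_dvd Fact.out).2 (not_dvd_of_sylow_eq_bot T hT)).symm
    refine hasNormalPComplement_of_normalizer_centerThompsonAOf hp T ?_
    obtain ⟨X, hX⟩ : ∃ X, X = centerThompsonAOf (T : Subgroup (G ⧸ pCore p G)) := ⟨_, rfl⟩
    rw [← hX]
    have hTX : (T : Subgroup (G ⧸ pCore p G)) ≤ Subgroup.normalizer (X : Set (G ⧸ pCore p G)) :=
      hX ▸ sylow_le_normalizer_of_functor isPFunctor_centerThompsonAOf T
    have hXp : IsPGroup p X :=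
      hX ▸ T.2.to_le (inf_le_left.trans (thompsonSubgroupAOf_le _))
    rcases hmax ((Subgroup.normalizer (X : Set (G ⧸ pCore p G))).comap π)
      (fun s hs => hTX ⟨s, hs, rfl⟩) with h | h
    · refine hasNormalPComplement_of_isPGroup ?_
      have e : Subgroup.normalizer (X : Set (G ⧸ pCore p G)) = (P : Subgroup G).map π := by
        rw [← h, Subgroup.map_comap_eq_self_of_surjective (QuotientGroup.mk'_surjective _)]
      rw [e]
      exact P.2.map π
    · exfalso
      haveI : X.Normal := Subgroup.normalizer_eq_top_iff.1 (eq_top_iff.2 fun y _ => by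
        obtain ⟨g, rfl⟩ := QuotientGroup.mk'_surjective (pCore p G) y
        exact Subgroup.mem_comap.1 (h ▸ Subgroup.mem_top g))
      have hle : X.comap π ≤ pCore p G := Cores.le_pCore (hXp.comap_of_ker_isPGroup π (by
        rw [QuotientGroup.ker_mk']; exact hQp))
      refine (isPFunctor_centerThompsonAOf (p := p)).ne_bot _ _ T.2 hT
        (hX ▸ eq_bot_iff.2 fun x hx => ?_)
      obtain ⟨g, rfl⟩ := QuotientGroup.mk'_surjective (pCore p G) x
      exact (QuotientGroup.eq_one_iff g).2 (hle hx)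
  have hcrit : IsCritical P := ⟨hnot, hK, hC, hmax,
    fun k l hk hl => isCritical_comm hq hmax hk hl,
    fun a ha hfix => isCritical_faith hnot hmax ha hfix⟩
  have hPW : (P : Subgroup G) ≤ Subgroup.normalizer (W : Set G) := by
    refine fun g hg => CoprimeAction.mem_normalizer_of_conj_mem fun x hx => (hW _).2 fun A hA => ?_
    exact hinv P le_rfl ⟨A₀, hA₀, hle A₀ hA₀⟩ g (Subgroup.le_normalizer hg) x
      (fun A' hA' _ => (hW x).1 hx A' hA') A hA (hle A hA)
  suffices htop : Subgroup.normalizer (W : Set G) = ⊤ by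
    rw [htop] at hN
    exact hnot ((hasNormalPComplement_congr Subgroup.topEquiv).1 hN)
  by_cases hout : ∃ A, F A ∧ ¬ A ≤ pCore p G
  · refine Subgroup.normalizer_eq_top_iff.2 (hcrit.normal_of_centralized hPW fun k hk => ?_)
    refine centralize_of_axiomatic hcrit hp hPW F hab hle
      (fun A hA x hx => (hW x).1 hx A hA) hout (fun A hA hAQ z hz g => ?_) hrep hk
    exact hinv (pCore p G) (Cores.pCore_le_sylow P) ⟨A, hA, hAQ⟩ g
      (Subgroup.le_normalizer_of_normal (Subgroup.mem_top g)) z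
      (fun A' hA' _ => (hW z).1 hz A' hA') A hA hAQ
  · push Not at hout
    refine eq_top_iff.2 fun g _ =>
      CoprimeAction.mem_normalizer_of_conj_mem fun x hx => (hW _).2 fun A hA => ?_
    exact hinv (pCore p G) (Cores.pCore_le_sylow P) ⟨A₀, hA₀, hout A₀ hA₀⟩ g
      (Subgroup.le_normalizer_of_normal (Subgroup.mem_top g)) x
      (fun A' hA' _ => (hW x).1 hx A' hA') A hA (hout A hA)

end CfsgLib.FusionBasics.AxiomaticGT
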